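import Cfsg.Agent.H700.DM.Defs

/-!
# S4907, DM10: numbers (helper342)
-/

set_option autoImplicit false

namespace Cfsg.Agent.H342.DM

open Finset Cfsg.Agent.H700.DM
open Cfsg.Agent.H902.Art (Sh NN num dd)

/-- the product of the factors `q ^ (i + 2) - 1` -/
theorem prodL_le (q n : ℕ) :
    ∏ i ∈ range n, (q ^ (i + 2) - 1) ≤ q ^ (∑ i ∈ range n, (i + 2)) := by
  rw [← Finset.prod_pow_eq_pow_sum]
  exact Finset.prod_le_prod' fun i _ => Nat.sub_le _ _

theorem prodC_le (q n : ℕ) :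
    ∏ i ∈ range n, (q ^ (2 * (i + 1)) - 1) ≤ q ^ (n * (n + 1)) := by
  induction n with
  | zero => simp
  | succ n ih =>
    rw [prod_range_succ, show (n + 1) * (n + 1 + 1) = n * (n + 1) + 2 * (n + 1) by ring, pow_add]
    exact Nat.mul_le_mul ih (Nat.sub_le _ _)

theorem sum_eq (n : ℕ) : (∑ i ∈ range n, (i + 2)) * 2 = n * (n + 3) := by
  induction n with
  | zero => simp
  | succ n ih => rw [sum_range_succ, add_mul, ih]; ring

theorem exp_eq {n : ℕ} (hn : 2 ≤ n) : ∑ i ∈ range (n - 1), (i + 2) = n * (n - 1) / 2 + (n - 1) := by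
  obtain ⟨m, rfl⟩ := Nat.exists_eq_add_of_le' (show 1 ≤ n by omega)
  rw [Nat.add_sub_cancel]
  have h1 := sum_eq m
  have h2 : 2 ∣ (m + 1) * m := by
    rw [mul_comm]; exact (Nat.even_mul_succ_self m).two_dvd
  obtain ⟨k, hk⟩ := h2
  rw [hk, Nat.mul_div_cancel_left _ (by norm_num)]
  have : m * (m + 3) = (m + 1) * m + 2 * m := by ring
  omega

theorem strict {a b c d : ℕ} (h : a ≤ b) (hb : 0 < b) (h' : c < d) : a * c < b * d :=
  (Nat.mul_le_mul_right c h).trans_lt (Nat.mul_lt_mul_of_pos_left h' hb)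

theorem pow_sub_one_lt {q : ℕ} (hq : 2 ≤ q) (k : ℕ) : q ^ k - 1 < q ^ k :=
  Nat.sub_lt (pow_pos (by omega) _) (by norm_num)

/-- the factors of the order of the unitary group -/
def fU (q i : ℕ) : ℕ := if Even i then q ^ (i + 2) - 1 else q ^ (i + 2) + 1

theorem pairU {q : ℕ} (hq : 2 ≤ q) (k : ℕ) : fU q (2 * k) * fU q (2 * k + 1) < q ^ (2 * k + 2) * q ^ (2 * k + 3) := by
  have h1 : fU q (2 * k) = q ^ (2 * k + 2) - 1 := if_pos (even_two_mul k)
  have h2 : fU q (2 * k + 1) = q ^ (2 * k + 3) + 1 := if_neg (by simp)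
  rw [h1, h2]
  obtain ⟨x, hx⟩ := Nat.exists_eq_add_of_le' (show 1 ≤ q ^ (2 * k + 2) from Nat.one_le_pow _ _ (by omega))
  have h3 : q ^ (2 * k + 3) = q * (x + 1) := by rw [pow_succ, hx, mul_comm]
  rw [h3, hx, Nat.add_sub_cancel]
  nlinarith [Nat.mul_le_mul_right (x + 1) hq]

theorem prodU_le {q : ℕ} (hq : 2 ≤ q) (k : ℕ) :
    ∏ i ∈ range (2 * k), fU q i ≤ q ^ (∑ i ∈ range (2 * k), (i + 2)) := by
  induction k with
  | zero => simp
  | succ k ih =>
    rw [show 2 * (k + 1) = 2 * k + 1 + 1 by ring, prod_range_succ, prod_range_succ, sum_range_succ,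
      sum_range_succ, pow_add, pow_add, mul_assoc, mul_assoc]
    exact Nat.mul_le_mul ih (pairU hq k).le

theorem prodU_lt {q : ℕ} (hq : 2 ≤ q) {n : ℕ} (hn : 1 ≤ n) :
    ∏ i ∈ range n, fU q i < q ^ (∑ i ∈ range n, (i + 2)) := by
  rcases Nat.even_or_odd' n with ⟨k, rfl | rfl⟩
  · obtain ⟨k, rfl⟩ := Nat.exists_eq_add_of_le' (show 1 ≤ k by omega)
    rw [show 2 * (k + 1) = 2 * k + 1 + 1 by ring, prod_range_succ, prod_range_succ, sum_range_succ,
      sum_range_succ, pow_add, pow_add, mul_assoc, mul_assoc]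
    exact strict (prodU_le hq k) (pow_pos (by omega) _) (pairU hq k)
  · rw [prod_range_succ, sum_range_succ, pow_add]
    refine strict (prodU_le hq k) (pow_pos (by omega) _) ?_
    rw [show fU q (2 * k) = q ^ (2 * k + 2) - 1 from if_pos (even_two_mul k)]
    exact pow_sub_one_lt hq _

/-- (a) the prime-to-`p` part of the order of the simply connected group -/
theorem num_lt {X : Sh} {p f M : ℕ} (hX : IsCl X) (h : H902.Art.Real X p f M) :
    num X (p ^ f) < (p ^ f) ^ (NN X + rk X) := by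
  have hq := h.q_ge
  have hok := h.ok
  set q := p ^ f with hqd
  have hq0 : 0 < q := by omega
  cases X with
  | L n =>
    have hn : 2 ≤ n := hok.1
    show ∏ i ∈ range (n - 1), (q ^ (i + 2) - 1) < q ^ (n * (n - 1) / 2 + (n - 1))
    rw [← exp_eq hn]
    obtain ⟨m, rfl⟩ := Nat.exists_eq_add_of_le' hn
    rw [show m + 2 - 1 = m + 1 by omega, prod_range_succ, sum_range_succ,
      pow_add q (∑ i ∈ range m, (i + 2)) (m + 2)]
    exact strict (prodL_le q m) (pow_pos hq0 _) (pow_sub_one_lt hq _)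
  | C m =>
    have hm : 2 ≤ m := hok.1
    show ∏ i ∈ range m, (q ^ (2 * (i + 1)) - 1) < q ^ (m ^ 2 + m)
    obtain ⟨k, rfl⟩ := Nat.exists_eq_add_of_le' (show 1 ≤ m by omega)
    rw [prod_range_succ, show (k + 1) ^ 2 + (k + 1) = k * (k + 1) + 2 * (k + 1) by ring, pow_add]
    exact strict (prodC_le q k) (pow_pos hq0 _) (pow_sub_one_lt hq _)
  | U n =>
    have hn : 3 ≤ n := hok.1
    show ∏ i ∈ range (n - 1), fU q i < q ^ (n * (n - 1) / 2 + (n - 1))
    rw [← exp_eq (show 2 ≤ n by omega)]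
    exact prodU_lt hq (by omega)
  | D m =>
    have hm : 4 ≤ m := hok
    show (q ^ m - 1) * ∏ i ∈ range (m - 1), (q ^ (2 * (i + 1)) - 1) < q ^ (m * (m - 1) + m)
    obtain ⟨k, rfl⟩ := Nat.exists_eq_add_of_le' (show 1 ≤ m by omega)
    rw [Nat.add_sub_cancel, mul_comm, mul_comm (k + 1) k, pow_add q (k * (k + 1)) (k + 1)]
    exact strict (prodC_le q k) (pow_pos hq0 _) (pow_sub_one_lt hq _)
  | DD m =>
    have hm : 4 ≤ m := hok
    show (q ^ m + 1) * ∏ i ∈ range (m - 1), (q ^ (2 * (i + 1)) - 1) < q ^ (m * (m - 1) + m)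
    obtain ⟨k, rfl⟩ := Nat.exists_eq_add_of_le' (show 2 ≤ m by omega)
    rw [show k + 2 - 1 = k + 1 by omega, prod_range_succ']
    have h1 : (∏ i ∈ range k, (q ^ (2 * (i + 1 + 1)) - 1)) ≤ q ^ (k * (k + 3)) := by
      clear hm hok h hX
      induction k with
      | zero => simp
      | succ k ih =>
        rw [prod_range_succ, show (k + 1) * (k + 1 + 3) = k * (k + 3) + 2 * (k + 1 + 1) by ring, pow_add]
        exact Nat.mul_le_mul ih (Nat.sub_le _ _)
    have h2 : (q ^ (2 * (0 + 1)) - 1) * (q ^ (k + 2) + 1) < q ^ 2 * q ^ (k + 2) := by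
      rw [show 2 * (0 + 1) = 2 by norm_num]
      obtain ⟨x, hx⟩ := Nat.exists_eq_add_of_le' (show 1 ≤ q ^ 2 from Nat.one_le_pow _ _ hq0)
      have h3 : q ^ (k + 2) = q ^ k * (x + 1) := by rw [pow_add, hx]
      have h4 : 1 ≤ q ^ k := Nat.one_le_pow _ _ hq0
      rw [h3, hx, Nat.add_sub_cancel]
      nlinarith [Nat.mul_le_mul_right (x + 1) h4]
    have h5 := strict h1 (pow_pos hq0 _) h2
    calc (q ^ (k + 2) + 1) * ((∏ i ∈ range k, (q ^ (2 * (i + 1 + 1)) - 1)) * (q ^ (2 * (0 + 1)) - 1))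
        = (∏ i ∈ range k, (q ^ (2 * (i + 1 + 1)) - 1)) * ((q ^ (2 * (0 + 1)) - 1) * (q ^ (k + 2) + 1)) := by ring
      _ < q ^ (k * (k + 3)) * (q ^ 2 * q ^ (k + 2)) := h5
      _ = q ^ ((k + 2) * (k + 1) + (k + 2)) := by rw [← pow_add, ← pow_add]; congr 1; ring
  | G2 => exact hX.elim
  | F4 => exact hX.elim
  | E6 => exact hX.elim
  | E7 => exact hX.elim
  | E8 => exact hX.elim
  | TE6 => exact hX.elim
  | TD4 => exact hX.elim
  | Sz => exact hX.elim
  | Ree => exact hX.elim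
  | TF4 => exact hX.elim

section

variable {g : OrdDiv.Grp} {X : Sh} {p f : ℕ} {H : Type*} [Group H] [Finite H]

theorem card_eq (H : Type*) [Group H] [Finite H] :
    Nat.card H = Nat.card (H ⧸ Subgroup.center H) * Nat.card (Subgroup.center H) :=
  (Subgroup.card_eq_card_quotient_mul_card_subgroup _)

/-- (b), first half: the `p`-part of the order of `H` -/
theorem Good.pt_eq (h : Good g X p f H) : pt p H = (p ^ f) ^ NN X := by
  have h1 := h.real.P_self
  show H902.Art.P p (Nat.card H) = _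
  rw [card_eq H, H902.Art.P_mul Nat.card_pos.ne' Nat.card_pos.ne', H902.Art.P_eq_one h.cop, mul_one, h1]

/-- the order of `H` is at most the order of the simply connected group -/
theorem Good.card_le (h : Good g X p f H) : Nat.card H ≤ (p ^ f) ^ NN X * num X (p ^ f) := by
  rw [card_eq H, ← h.real.eq, mul_comm]
  exact Nat.mul_le_mul_right _ (Nat.le_of_dvd (Nat.pos_of_ne_zero h.real.dd_ne) h.dvd)

/-- (b), second half: the order of `H` -/
theorem Good.size (h : Good g X p f H) : Nat.card H < 2 * (lb X (p ^ f) + 1) * pt p H ^ 2 := by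
  have h1 := Good.card_le h
  have h2 := num_lt h.cl h.real
  have hq := h.real.q_ge
  rw [Good.pt_eq h]
  set q := p ^ f with hqd
  have h3 : 0 < q ^ NN X := pow_pos (by omega) _
  have h4 : q ^ rk X ≤ 2 * (lb X q + 1) := by
    show q ^ rk X ≤ 2 * ((q ^ rk X - 1) / 2 + 1)
    omega
  calc Nat.card H ≤ q ^ NN X * num X q := h1
    _ < q ^ NN X * q ^ (NN X + rk X) := Nat.mul_lt_mul_of_pos_left h2 h3
    _ = q ^ rk X * (q ^ NN X) ^ 2 := by ring
    _ ≤ 2 * (lb X q + 1) * (q ^ NN X) ^ 2 := Nat.mul_le_mul_right _ h4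

end

end Cfsg.Agent.H342.DM
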